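import Cfsg.Agent.H509.TIC
import Cfsg.Agent.OddOrderLocal.CNMaxNil
import Cfsg.Agent.OddOrderCharacters.ClassSum

/-!
# Groups in which every element centralizer is a TI-subset: the nilpotent TI Hall subgroups

`Kit H`: `H ≠ 1` nilpotent Hall, TI, containing the centralizers of its nonidentity elements.

* `exists_kit` : every Sylow subgroup `P ≠ 1` of a non-nilpotent group lies in such an `H`;
* `Kit.inf_conj_normalizer` : `H ∩ N(H)^g = 1` for `g ∉ N(H)`;
* `Kit.card_dvd` : `|H|` divides `|G : N(H)| - 1`.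
-/

set_option autoImplicit false
set_option linter.style.haveILetI false
set_option linter.dupNamespace false

namespace Cfsg.Agent.H509.Kit

open Subgroup Cfsg Cfsg.Agent.H509.TIC

variable {G : Type*} [Group G]

structure Kit (H : Subgroup G) : Prop where
  nil : Group.IsNilpotent H
  ne : H ≠ ⊥
  cop : (Nat.card H).Coprime H.index
  ti : ∀ g x : G, x ∈ H → g * x * g⁻¹ ∈ H → x ≠ 1 → g ∈ normalizer (H : Set G)
  cen : ∀ x ∈ H, x ≠ 1 → ∀ c, c * x = x * c → c ∈ H

open Cfsg.Agent.OddOrderLocal.CNMaxNil in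
theorem exists_kit [Finite G] (h : Tic G) {p : ℕ} [hp : Fact p.Prime] (P : Sylow p G)
    (hP : (P : Subgroup G) ≠ ⊥) : ∃ H : Subgroup G, Kit H ∧ (P : Subgroup G) ≤ H := by
  classical
  have hPn : Group.IsNilpotent (P : Subgroup G) := P.isPGroup'.isNilpotent
  obtain ⟨H, hH, hPH⟩ := exists_isMaxNil_ge (P : Subgroup G) hPn
  have hne : H ≠ ⊥ := by
    rintro rfl
    exact hP (le_bot_iff.1 hPH)
  obtain ⟨h1, h2, h3⟩ := S1477.result h.cn H hH.1 hH.2
  have hTI : ∀ g : G, H.map (MulAut.conj g).toMonoidHom ≠ H →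
      H ⊓ H.map (MulAut.conj g).toMonoidHom = ⊥ := by
    by_cases hpp : IsPrimePow (Nat.card H)
    · -- `H` is a `q`-group
      obtain ⟨q, k, hq, hk, hqk⟩ := hpp
      have hq' : q.Prime := hq.nat_prime
      haveI : Fact q.Prime := ⟨hq'⟩
      have hHq : IsPGroup q H := IsPGroup.of_card hqk.symm
      obtain ⟨Q, hQ⟩ := hHq.exists_le_sylow
      have hQn : Group.IsNilpotent (Q : Subgroup G) := Q.isPGroup'.isNilpotent
      have hQH : (Q : Subgroup G) = H := hH.2 _ hQn hQ
      intro g hg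
      have h4 : ((MulAut.conj g • Q : Sylow q G) : Subgroup G) = H.map (MulAut.conj g).toMonoidHom := by
        rw [← hQH]; rfl
      have h5 : Q ≠ (MulAut.conj g • Q : Sylow q G) := by
        intro h6
        apply hg
        rw [← h4, ← h6, hQH]
      have h6 := S4066.result h Q _ h5
      rw [h4, hQH] at h6
      exact h6
    · refine h2 hpp ?_
      intro h4
      exact hne (Subgroup.card_eq_one.1 h4)
  refine ⟨H, ⟨hH.1, hne, h1, ?_, ?_⟩, hPH⟩
  · intro g x hx hgx hx1
    apply mem_normalizer_of_map_conj_eq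
    by_contra hg
    have h4 := hTI g hg
    have h5 : g * x * g⁻¹ ∈ H ⊓ H.map (MulAut.conj g).toMonoidHom := by
      refine Subgroup.mem_inf.2 ⟨hgx, ?_⟩
      rw [mem_map_conj_iff]
      have : g⁻¹ * (g * x * g⁻¹) * g = x := by group
      rwa [this]
    rw [h4, Subgroup.mem_bot] at h5
    apply hx1
    have : x = g⁻¹ * (g * x * g⁻¹) * g := by group
    rw [this, h5]; group
  · intro x hx hx1 c hc
    exact h3 hTI x hx hx1 (mem_centralizer_singleton_iff.2 hc)

namespace Kit

variable {H : Subgroup G}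

/-- an element of prime order dividing `|H|` and normalizing `H` lies in `H` -/
theorem mem_of_normalizer [Finite G] (k : Kit H) {x : G} (hx : x ∈ normalizer (H : Set G)) {p : ℕ}
    (hp : p.Prime) (hpH : p ∣ Nat.card H) (hxp : x ^ p = 1) : x ∈ H := by
  classical
  haveI : Fact p.Prime := ⟨hp⟩
  set N := normalizer (H : Set G) with hN
  have hHN : H ≤ N := le_normalizer
  haveI hn : (H.subgroupOf N).Normal := by rw [hN]; exact Subgroup.normal_in_normalizer
  -- the image of `x` in `N ⧸ H` has order dividing `p` and dividing `|N : H|`, prime to `p`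
  have h1 : ¬ p ∣ (H.subgroupOf N).index := by
    intro h2
    have h3 : (H.subgroupOf N).index ∣ H.index := Subgroup.relIndex_dvd_index_of_le hHN
    have h4 := k.cop
    exact hp.one_lt.ne' (Nat.dvd_one.1 (h4 ▸ Nat.dvd_gcd hpH (h2.trans h3)))
  have h2 : (QuotientGroup.mk (⟨x, hx⟩ : N) : N ⧸ H.subgroupOf N) = 1 := by
    have h3 : orderOf (QuotientGroup.mk (⟨x, hx⟩ : N) : N ⧸ H.subgroupOf N) ∣ p := by
      apply orderOf_dvd_of_pow_eq_one
      rw [← QuotientGroup.mk_pow]
      have : (⟨x, hx⟩ : N) ^ p = 1 := Subtype.ext (by push_cast; exact hxp)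
      rw [this]; rfl
    have h4 : orderOf (QuotientGroup.mk (⟨x, hx⟩ : N) : N ⧸ H.subgroupOf N) ∣
        (H.subgroupOf N).index := orderOf_dvd_natCard _
    rcases (Nat.dvd_prime hp).1 h3 with h5 | h5
    · exact orderOf_eq_one_iff.1 h5
    · rw [h5] at h4
      exact absurd h4 h1
  have h3 := (QuotientGroup.eq_one_iff _).1 h2
  exact h3

/-- `H ∩ N(H)^g = 1` for `g ∉ N(H)` -/
theorem inf_conj_normalizer [Finite G] (k : Kit H) {g x : G} (hg : g ∉ normalizer (H : Set G))
    (hx : x ∈ H) (hgx : g⁻¹ * x * g ∈ normalizer (H : Set G)) : x = 1 := by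
  classical
  by_contra hx1
  -- a power of prime order
  obtain ⟨p, hp, hpx⟩ := Nat.exists_prime_and_dvd (n := orderOf x) (fun h => hx1 (orderOf_eq_one_iff.1 h))
  have hpH : p ∣ Nat.card H := by
    have : orderOf x ∣ Nat.card H := by
      have h1 := orderOf_dvd_natCard (⟨x, hx⟩ : H)
      rwa [← Subgroup.orderOf_coe] at h1
    exact hpx.trans this
  set y := x ^ (orderOf x / p) with hy
  have hyp : orderOf y = p := orderOf_pow_orderOf_div (orderOf_pos x).ne' hpx
  have hyH : y ∈ H := H.pow_mem hx _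
  have hgy : g⁻¹ * y * g ∈ H := by
    refine k.mem_of_normalizer (p := p) ?_ hp hpH ?_
    · have : g⁻¹ * y * g = (g⁻¹ * y * g⁻¹⁻¹) := by group
      rw [this, hy, ← conj_pow, inv_inv]
      exact Subgroup.pow_mem _ hgx _
    · have h1 := conj_pow (i := p) (a := g⁻¹) (b := y)
      rw [inv_inv] at h1
      rw [h1, ← hyp, pow_orderOf_eq_one]; group
  have hy1 : y ≠ 1 := by
    intro h1
    rw [h1, orderOf_one] at hyp
    exact hp.one_lt.ne hyp
  have h2 := k.ti g⁻¹ y hyH (by rwa [inv_inv]) hy1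
  apply hg
  have := (normalizer (H : Set G)).inv_mem h2
  rwa [inv_inv] at this

/-- `|H|` divides `|G : N(H)| - 1` -/
theorem card_dvd [Finite G] (k : Kit H) : Nat.card H ∣ (normalizer (H : Set G)).index - 1 := by
  classical
  set N := normalizer (H : Set G) with hN
  haveI : Fintype (G ⧸ N) := Fintype.ofFinite _
  have h1 := OddOrderCharacters.ClassSum.card_dvd_of_free (H := H) (X := G ⧸ N)
    (Finset.univ.erase (QuotientGroup.mk (1 : G))) ?_ ?_
  · rw [Finset.card_erase_of_mem (Finset.mem_univ _), Finset.card_univ, ← Nat.card_eq_fintype_card] at h1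
    exact h1
  · intro h x hx
    rw [Finset.mem_erase] at hx ⊢
    refine ⟨fun h2 => hx.1 ?_, Finset.mem_univ _⟩
    obtain ⟨g, rfl⟩ := QuotientGroup.mk_surjective x
    have h3 : (QuotientGroup.mk ((h : G) * g) : G ⧸ N) = QuotientGroup.mk 1 := h2
    rw [eq_comm, QuotientGroup.eq] at h3 ⊢
    simp only [inv_one, one_mul] at h3 ⊢
    have h4 : (h : G) ∈ N := le_normalizer h.2
    have h5 := N.mul_mem (N.inv_mem h4) h3
    rwa [inv_mul_cancel_left] at h5
  · intro h x hx h2
    rw [Finset.mem_erase] at hx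
    obtain ⟨g, rfl⟩ := QuotientGroup.mk_surjective x
    have h3 : (QuotientGroup.mk ((h : G) * g) : G ⧸ N) = QuotientGroup.mk g := h2
    rw [eq_comm, QuotientGroup.eq] at h3
    have hg : g ∉ N := by
      intro h4
      apply hx.1
      rw [eq_comm, QuotientGroup.eq]
      simpa using h4
    apply Subtype.ext
    exact k.inf_conj_normalizer hg h.2 (by rwa [← mul_assoc] at h3)

end Kit

end Cfsg.Agent.H509.Kit
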