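import Cfsg.Prelude.Def_OddOrderLocal
import Cfsg.Prelude.Def_LieExceptional
import Cfsg.Agent.S4066
import Cfsg.Agent.S1477

/-!
# Groups in which every element centralizer is a TI-subset: basic facts

* `TIC.comm` : for `x ≠ 1` every element of `C(x)` commutes with its `C(x)`-conjugates;
* `TIC.cn` : `G` is a CN-group;
* `TIC.nilpotent_of_center` : `Z(G) ≠ 1` implies `G` nilpotent, and then every element commutes with its conjugates;
* `TIC.sub`, `TIC.congr` : inheritance.
-/

set_option autoImplicit false

namespace Cfsg.Agent.H509.TIC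

open Subgroup Cfsg

/-- every element centralizer is a TI-subset -/
def Tic (G : Type*) [Group G] : Prop :=
  ∀ x : G, Cfsg.IsTISubset (Subgroup.centralizer ({x} : Set G) : Set G)

section

variable {G : Type*} [Group G]

theorem Tic.norm (h : Tic G) {w a g : G} (ha : a * w = w * a) (ha1 : a ≠ 1)
    (hg : (g * a * g⁻¹) * w = w * (g * a * g⁻¹)) (c : G) :
    c * w = w * c ↔ (g * c * g⁻¹) * w = w * (g * c * g⁻¹) := by
  have h1 : g ∈ Subgroup.normalizer (Subgroup.centralizer ({w} : Set G) : Set G) := by
    by_contra hn
    exact ha1 (h w g hn a (by rwa [SetLike.mem_coe, mem_centralizer_singleton_iff])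
      (by rwa [SetLike.mem_coe, mem_centralizer_singleton_iff]))
  have h2 := Subgroup.mem_normalizer_iff.1 h1 c
  rwa [mem_centralizer_singleton_iff, mem_centralizer_singleton_iff] at h2

/-- for `x ≠ 1`, the elements of `C(x)` commute with their `C(x)`-conjugates -/
theorem Tic.comm (h : Tic G) {x y k : G} (hx : x ≠ 1) (hy : y * x = x * y) (hk : k * x = x * k) :
    y * (k * y * k⁻¹) = (k * y * k⁻¹) * y := by
  have h1 : k * x * k⁻¹ = x := by rw [hk]; group
  have h2 := (h.norm (w := y) (a := x) (g := k) hy.symm hx (by rw [h1]; exact hy.symm) y).1 rfl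
  exact h2.symm

theorem Tic.sub (h : Tic G) (H : Subgroup G) : Tic H := by
  intro x g hg y hy hgy
  rw [SetLike.mem_coe, mem_centralizer_singleton_iff] at hy hgy
  by_contra hy1
  apply hg
  rw [Subgroup.mem_normalizer_iff]
  intro c
  rw [mem_centralizer_singleton_iff, mem_centralizer_singleton_iff]
  have hy' : (y : G) * x = x * y := by exact_mod_cast congrArg Subtype.val hy
  have hgy' : ((g : G) * y * (g : G)⁻¹) * x = x * ((g : G) * y * (g : G)⁻¹) := by
    exact_mod_cast congrArg Subtype.val hgy
  have h1 := h.norm (w := (x : G)) (a := (y : G)) (g := (g : G)) hy'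
    (fun h0 => hy1 (Subtype.ext h0)) hgy' (c : G)
  constructor
  · intro hc
    apply Subtype.ext
    push_cast
    exact h1.1 (by exact_mod_cast congrArg Subtype.val hc)
  · intro hc
    apply Subtype.ext
    push_cast
    apply h1.2
    have := congrArg Subtype.val hc
    push_cast at this
    exact this

theorem Tic.congr {K : Type*} [Group K] (e : G ≃* K) (h : Tic G) : Tic K := by
  intro x g hg y hy hgy
  rw [SetLike.mem_coe, mem_centralizer_singleton_iff] at hy hgy
  by_contra hy1
  apply hg
  rw [Subgroup.mem_normalizer_iff]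
  intro c
  rw [mem_centralizer_singleton_iff, mem_centralizer_singleton_iff]
  have h1 := h.norm (w := e.symm x) (a := e.symm y) (g := e.symm g) (by rw [← map_mul, hy, map_mul])
    (fun h0 => hy1 (by simpa using h0))
    (by rw [← map_inv, ← map_mul, ← map_mul, ← map_mul, hgy, map_mul, map_mul, map_mul, map_inv])
    (e.symm c)
  rw [← map_mul, ← map_mul, ← map_inv, ← map_mul, ← map_mul, ← map_mul, ← map_mul,
    e.symm.injective.eq_iff, e.symm.injective.eq_iff] at h1
  exact h1

/-- a finite group in which every element commutes with all its conjugates is nilpotent -/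
theorem nilpotent_of_commute [Finite G] (h : ∀ x g : G, Commute x (g * x * g⁻¹)) :
    Group.IsNilpotent G := by
  classical
  have h5 := (Group.isNilpotent_of_finite_tfae (G := G)).out 0 3
  refine h5.2 ?_
  intro p hp P
  have key : ∀ Q : Sylow p G, Q = P := fun Q =>
    Sylow.ext (Q.is_maximal' P.isPGroup'
      (S4066.sylow_le_of_commute ⊤ (fun x _ g _ => h x g) Q P le_top le_top)).symm
  haveI : Subsingleton (Sylow p G) := ⟨fun a b => (key a).trans (key b).symm⟩
  exact Sylow.normal_of_subsingleton P

/-- `G` is a CN-group -/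
theorem Tic.cn [Finite G] (h : Tic G) : Cfsg.IsCNGroup G := by
  intro x hx
  apply nilpotent_of_commute
  intro y k
  have h1 := h.comm (x := x) (y := y) (k := k) hx (mem_centralizer_singleton_iff.1 y.2)
    (mem_centralizer_singleton_iff.1 k.2)
  exact Subtype.ext (by push_cast; exact h1)

/-- if `G` has a central element `≠ 1`, every element commutes with its conjugates -/
theorem Tic.comm_of_center (h : Tic G) {z : G} (hz : ∀ g, g * z = z * g) (hz1 : z ≠ 1) (x g : G) :
    x * (g * x * g⁻¹) = (g * x * g⁻¹) * x := h.comm hz1 (hz x) (hz g)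

theorem Tic.center_eq_bot [Finite G] (h : Tic G) (hn : ¬ Group.IsNilpotent G) : center G = ⊥ := by
  rw [Subgroup.eq_bot_iff_forall]
  intro z hz
  by_contra hz1
  exact hn (nilpotent_of_commute (fun x g =>
    h.comm_of_center (fun g => (Subgroup.mem_center_iff.1 hz g)) hz1 x g))

end

end Cfsg.Agent.H509.TIC
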